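import Cfsg.Agent.H256.RC.ZFour

/-!
# S3510, triality type (iii), box (MIX-M), part (d): the multiplicities (helper531)

`c ∈ AutD (fG s)` of prime order `l ∣ q₀² ± q₀ + 1`, `l ≠ 3`, commuting with `u ∈ AutD (fG s)` of order `p`:
either `u` is a long root element or `c` has the multiplicities `3, 3, 1, 1`.

* `claim1`, `det_K` : the multiplicities over the algebraic closure (machine of `H256/RC`);
* `exN_rank`, `eig_rank`, `ker_qf` : descent;
* `det_mult` : the statement over the finite field.
-/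

set_option autoImplicit false
set_option linter.unusedSectionVars false
set_option linter.unusedVariables false

namespace Cfsg.Agent.H531.RC

open Module QuadraticMap Cfsg.Agent.LieClassical.OrthCore Cfsg.Agent.LieClassical.OrthTrans Cfsg.Agent.H256.RC

universe u v

variable {K : Type u} {V : Type v} [Field K] [AddCommGroup V] [Module K V]
variable {Q : QuadraticForm K V} {φ : K ≃+* K} {g : V → V} {m : V → V → V} {l n : ℕ} {N U : V →ₗ[K] V}
variable {a : ZMod l} {e : ZMod l → K}

/-! ### unipotent maps commuting with `N` -/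

section uni

/-- `U` preserves the eigenspaces -/
theorem U_mem (hUN : U * N = N * U) {c : K} {x : V} (hx : x ∈ Ei N c) : U x ∈ Ei N c := by
  rw [mem_Ei] at *
  have h1 : (U * N) x = (N * U) x := by rw [hUN]
  change U (N x) = N (U x) at h1
  rw [← h1, hx, map_smul]

theorem D_mem (hUN : U * N = N * U) {c : K} {x : V} (hx : x ∈ Ei N c) : (U - 1) x ∈ Ei N c := by
  rw [LinearMap.sub_apply]
  exact (Ei N c).sub_mem (U_mem hUN hx) hx

/-- the restriction of `U - 1` -/
def Dr (hUN : U * N = N * U) (c : K) : Ei N c →ₗ[K] Ei N c :=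
  (U - 1).restrict (p := Ei N c) (q := Ei N c) (fun _ hx => D_mem hUN hx)

theorem Dr_apply (hUN : U * N = N * U) {c : K} (x : Ei N c) : ((Dr hUN c x : Ei N c) : V) = (U - 1) (x : V) := rfl

theorem Dr_nil {k : ℕ} (hUN : U * N = N * U) (hU : (U - 1) ^ k = 0) (c : K) : Dr hUN c ^ k = 0 := by
  apply LinearMap.ext
  intro x
  apply Subtype.ext
  have h1 : ∀ (k : ℕ) (x : Ei N c), (((Dr hUN c ^ k) x : Ei N c) : V) = ((U - 1) ^ k) (x : V) := by
    intro k
    induction k with
    | zero => intro x; rfl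
    | succ k ih =>
      intro x
      rw [pow_succ, pow_succ, Module.End.mul_apply, Module.End.mul_apply, ih, Dr_apply]
  rw [h1, hU]
  rfl

theorem nil_pow_finrank {W : Type*} [AddCommGroup W] [Module K W] [FiniteDimensional K W] {f : W →ₗ[K] W} {k : ℕ}
    (hf : f ^ k = 0) : f ^ finrank K W = 0 := by
  have h1 : f.charpoly = Polynomial.X ^ finrank K W := IsNilpotent.charpoly_eq_X_pow_finrank (φ := f) ⟨k, hf⟩
  have h2 := LinearMap.aeval_self_charpoly f
  rwa [h1, map_pow, Polynomial.aeval_X] at h2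

end uni

/-! ### sums of dimensions -/

theorem no2 : ∀ a : ZMod 2, a * a + a + 1 ≠ 0 := by decide

section sums

variable [Fact l.Prime]

theorem two_ne (ha : a * a + a + 1 = 0) : (2 : ZMod l) ≠ 0 := by
  intro h
  have h2 : l = 2 := (Nat.prime_dvd_prime_iff_eq Fact.out Nat.prime_two).1
    (zmod_num (l := l) (n := 2) (by exact_mod_cast h))
  subst h2
  exact no2 a ha

theorem three_ne (hl3 : l ≠ 3) : (3 : ZMod l) ≠ 0 := by
  intro h
  exact hl3 ((Nat.prime_dvd_prime_iff_eq Fact.out Nat.prime_three).1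
    (zmod_num (l := l) (n := 3) (by exact_mod_cast h)))

theorem sum5 {d : ZMod l → ℕ} (hd : ∀ i, d (-i) = d i) (h8 : ∑ i, d i = 8) (h2 : (2 : ZMod l) ≠ 0) {i c : ZMod l}
    (hi : i ≠ 0) (hc0 : c ≠ 0) (hc1 : c ≠ 1) (hc2 : c ≠ -1) : d 0 + 2 * d i + 2 * d (c * i) ≤ 8 := by
  have n1 : 2 * i ≠ 0 := mul_ne_zero h2 hi
  have n2 : c * i ≠ 0 := mul_ne_zero hc0 hi
  have n3 : 2 * (c * i) ≠ 0 := mul_ne_zero h2 n2
  have n4 : (c - 1) * i ≠ 0 := mul_ne_zero (sub_ne_zero.2 hc1) hi
  have n5 : (c + 1) * i ≠ 0 := mul_ne_zero (fun h => hc2 (by linear_combination h)) hi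
  have hs : ∑ x ∈ ({0, i, -i, c * i, -(c * i)} : Finset (ZMod l)), d x =
      d 0 + (d i + (d (-i) + (d (c * i) + d (-(c * i))))) := by
    rw [Finset.sum_insert, Finset.sum_insert, Finset.sum_insert, Finset.sum_insert, Finset.sum_singleton]
    all_goals
      simp only [Finset.mem_insert, Finset.mem_singleton, not_or]
      repeat' apply And.intro
      all_goals
        intro h
        first
          | exact hi (by linear_combination h)
          | exact hi (by linear_combination -h)
          | exact n1 (by linear_combination h)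
          | exact n1 (by linear_combination -h)
          | exact n2 (by linear_combination h)
          | exact n2 (by linear_combination -h)
          | exact n3 (by linear_combination h)
          | exact n3 (by linear_combination -h)
          | exact n4 (by linear_combination h)
          | exact n4 (by linear_combination -h)
          | exact n5 (by linear_combination h)
          | exact n5 (by linear_combination -h)
  have h9 := Finset.sum_le_univ_sum_of_nonneg (s := ({0, i, -i, c * i, -(c * i)} : Finset (ZMod l))) (f := d)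
    (fun _ => Nat.zero_le _)
  rw [hs, h8, hd, hd] at h9
  omega

theorem sum7 {d : ZMod l → ℕ} (hd : ∀ i, d (-i) = d i) (h8 : ∑ i, d i = 8) (h2 : (2 : ZMod l) ≠ 0) {i c j : ZMod l}
    (hi : i ≠ 0) (hc0 : c ≠ 0) (hc1 : c ≠ 1) (hc2 : c ≠ -1) (hj0 : j ≠ 0) (hj1 : j ≠ i) (hj2 : j ≠ -i)
    (hj3 : j ≠ c * i) (hj4 : j ≠ -(c * i)) : d 0 + 2 * d i + 2 * d (c * i) + 2 * d j ≤ 8 := by
  have n1 : 2 * i ≠ 0 := mul_ne_zero h2 hi
  have n2 : c * i ≠ 0 := mul_ne_zero hc0 hi
  have n3 : 2 * (c * i) ≠ 0 := mul_ne_zero h2 n2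
  have n4 : (c - 1) * i ≠ 0 := mul_ne_zero (sub_ne_zero.2 hc1) hi
  have n5 : (c + 1) * i ≠ 0 := mul_ne_zero (fun h => hc2 (by linear_combination h)) hi
  have n6 : 2 * j ≠ 0 := mul_ne_zero h2 hj0
  have hs : ∑ x ∈ ({0, i, -i, c * i, -(c * i), j, -j} : Finset (ZMod l)), d x =
      d 0 + (d i + (d (-i) + (d (c * i) + (d (-(c * i)) + (d j + d (-j)))))) := by
    rw [Finset.sum_insert, Finset.sum_insert, Finset.sum_insert, Finset.sum_insert, Finset.sum_insert,
      Finset.sum_insert, Finset.sum_singleton]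
    all_goals
      simp only [Finset.mem_insert, Finset.mem_singleton, not_or]
      repeat' apply And.intro
      all_goals
        intro h
        first
          | exact hi (by linear_combination h)
          | exact hi (by linear_combination -h)
          | exact n1 (by linear_combination h)
          | exact n1 (by linear_combination -h)
          | exact n2 (by linear_combination h)
          | exact n2 (by linear_combination -h)
          | exact n3 (by linear_combination h)
          | exact n3 (by linear_combination -h)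
          | exact n4 (by linear_combination h)
          | exact n4 (by linear_combination -h)
          | exact n5 (by linear_combination h)
          | exact n5 (by linear_combination -h)
          | exact n6 (by linear_combination h)
          | exact n6 (by linear_combination -h)
          | exact hj0 (by linear_combination h)
          | exact hj0 (by linear_combination -h)
          | exact hj1 (by linear_combination h)
          | exact hj1 (by linear_combination -h)
          | exact hj2 (by linear_combination h)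
          | exact hj2 (by linear_combination -h)
          | exact hj3 (by linear_combination h)
          | exact hj3 (by linear_combination -h)
          | exact hj4 (by linear_combination h)
          | exact hj4 (by linear_combination -h)
  have h9 := Finset.sum_le_univ_sum_of_nonneg (s := ({0, i, -i, c * i, -(c * i), j, -j} : Finset (ZMod l))) (f := d)
    (fun _ => Nat.zero_le _)
  rw [hs, h8, hd, hd, hd] at h9
  omega

end sums

/-! ### the weights -/

section main

variable [Fact l.Prime] [FiniteDimensional K V]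

omit [Fact l.Prime] in
theorem nontriv {i : ZMod l} (h : dd N e i ≠ 0) : ∃ x ∈ Ei N (e i), x ≠ 0 := by
  have h5 : 0 < finrank K (Ei N (e i)) := Nat.pos_of_ne_zero h
  have : Nontrivial (Ei N (e i)) := Module.finrank_pos_iff.1 h5
  obtain ⟨u, hu⟩ := exists_ne (0 : Ei N (e i))
  exact ⟨u, u.2, fun h => hu (Subtype.ext h)⟩

omit [Fact l.Prime] in
theorem zero_of {i : ZMod l} (h : dd N e i = 0) {x : V} (hx : x ∈ Ei N (e i)) : x = 0 := by
  have h1 : finrank K (Ei N (e i)) = 0 := h
  rw [Submodule.finrank_eq_zero] at h1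
  rw [h1] at hx
  exact (Submodule.mem_bot K).1 hx

variable [IsAlgClosed K]

/-- a weight of multiplicity at least two gives the weight `(2 a + 1) i` -/
theorem claim1 (h : TK Q φ g m) (hQ : Nondeg Q) (he : Wt φ l a e) (hN : Au3 Q g m l N) (ha : a * a + a + 1 = 0)
    (hl : (l : K) ≠ 0) {i : ZMod l} (h2 : 2 ≤ dd N e i) : dd N e ((2 * a + 1) * i) ≠ 0 := by
  intro h0
  have hb : a * (-1 - a) = 1 := by linear_combination -ha
  have hneg := he.dd_neg hl hN hQ
  have h0' : dd N e (-((2 * a + 1) * i)) = 0 := by rw [hneg, h0]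
  have p1 : ∀ x ∈ Ei N (e i), ∀ y ∈ Ei N (e (-i)), m x y = 0 := by
    intro x hx y hy
    have h3 := he.mul_mem h hN hb hx hy
    have h4 : (-1 - a) * i + a * -i = -((2 * a + 1) * i) := by ring
    rw [h4] at h3
    exact zero_of h0' h3
  have p2 : ∀ x ∈ Ei N (e (-i)), ∀ y ∈ Ei N (e i), m x y = 0 := by
    intro x hx y hy
    have h3 := he.mul_mem h hN hb hx hy
    have h4 : (-1 - a) * -i + a * i = (2 * a + 1) * i := by ring
    rw [h4] at h3
    exact zero_of h0 h3
  obtain ⟨u, hu, hu0⟩ := nontriv (N := N) (e := e) (i := i) (by omega)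
  obtain ⟨z, hz, hz0, huz⟩ : ∃ z ∈ Ei N (e (-i)), z ≠ 0 ∧ polar Q u z = 0 := by
    let f : Ei N (e (-i)) →ₗ[K] K := (polarBilin Q u).comp (Submodule.subtype _)
    have h5 := LinearMap.finrank_range_add_finrank_ker f
    have h6 : finrank K (LinearMap.range f) ≤ 1 := by
      have := Submodule.finrank_le (LinearMap.range f)
      rwa [Module.finrank_self] at this
    have h7 : finrank K (Ei N (e (-i))) = dd N e i := hneg i
    have h8 : 0 < finrank K (LinearMap.ker f) := by omega
    have : Nontrivial (LinearMap.ker f) := Module.finrank_pos_iff.1 h8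
    obtain ⟨z, hz⟩ := exists_ne (0 : LinearMap.ker f)
    exact ⟨((z : Ei N (e (-i))) : V), (z : Ei N (e (-i))).2, fun h => hz (Subtype.ext (Subtype.ext h)),
      LinearMap.mem_ker.1 z.2⟩
  have ht' : m u u ∈ Ei N (e (-i)) := by
    have h3 := he.mul_mem h hN hb hu hu
    have h4 : (-1 - a) * i + a * i = -i := by ring
    rwa [h4] at h3
  have ht0 : m u u ≠ 0 := by
    intro h9
    obtain ⟨z', hz', huz'⟩ := he.exists_dual hl hN hQ hu hu0
    exact hu0 (h.eq_zero_of' huz' h9 (p1 u hu z' hz'))
  have hg : g z ∈ Ei N (e (-i)) := by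
    have h3 := he.g_mem h hN hb hz
    have h4 : (-1 - a) * ((-1 - a) * ((-1 - a) * -i)) = -i := by linear_combination (a + 2) * i * ha
    rwa [h4] at h3
  have h10 := h.lin1 u u z
  rw [huz, map_zero, map_zero, zero_smul, p2 z hz u hu, h.zero_left, add_zero] at h10
  obtain ⟨x, hx, hgx⟩ := he.exists_dual hl hN hQ hg (fun h11 => hz0 (h.g_inj hQ h11))
  rw [neg_neg] at hx
  exact ht0 (h.eq_zero_of' hgx h10 (p2 _ ht' x hx))

omit [Fact l.Prime] in
/-- `U` is trivial if it is trivial on the weight spaces -/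
theorem U_one (he : Wt φ l a e) (hl : (l : K) ≠ 0) (hN : Au3 Q g m l N)
    (hall : ∀ i, ∀ x ∈ Ei N (e i), U x = x) : U = 1 := by
  apply LinearMap.ext
  intro x
  have hx : x ∈ ⨆ j, Ei N (e j) := by rw [he.iSup_eq hl hN.pow]; exact Submodule.mem_top
  induction hx using Submodule.iSup_induction' with
  | mem j y hy => exact hall j y hy
  | zero => rw [map_zero, map_zero]
  | add y z _ _ h1 h2 => rw [map_add, h1, h2, map_add]

omit [Fact l.Prime] [IsAlgClosed K] in
/-- `U` is trivial on the weight spaces of dimension one -/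
theorem U_line (hUN : U * N = N * U) {k : ℕ} (hUk : (U - 1) ^ k = 0) {i : ZMod l} (hi : dd N e i ≤ 1) {x : V}
    (hx : x ∈ Ei N (e i)) : U x = x := by
  have h1 := nil_pow_finrank (Dr_nil hUN hUk (e i))
  have h2 : Dr hUN (e i) ^ 1 = 0 := by
    have h3 : finrank K (Ei N (e i)) ≤ 1 := hi
    rw [← Nat.sub_add_cancel h3, pow_add, h1, mul_zero]
  rw [pow_one] at h2
  have h4 := congrArg (fun f : Ei N (e i) →ₗ[K] Ei N (e i) => ((f ⟨x, hx⟩ : Ei N (e i)) : V)) h2
  beta_reduce at h4
  rw [Dr_apply] at h4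
  exact sub_eq_zero.1 h4

omit [Fact l.Prime] [IsAlgClosed K] in
theorem U_sq (hUN : U * N = N * U) {k : ℕ} (hUk : (U - 1) ^ k = 0) {i : ZMod l} (hi : dd N e i = 2) {x : V}
    (hx : x ∈ Ei N (e i)) : (U - 1) ((U - 1) x) = 0 := by
  have h1 := nil_pow_finrank (Dr_nil hUN hUk (e i))
  have h3 : finrank K (Ei N (e i)) = 2 := hi
  rw [h3, pow_two] at h1
  have h4 := congrArg (fun f : Ei N (e i) →ₗ[K] Ei N (e i) => ((f ⟨x, hx⟩ : Ei N (e i)) : V)) h1
  beta_reduce at h4
  rw [Module.End.mul_apply, Dr_apply, Dr_apply] at h4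
  exact h4

end main

section long

variable [FiniteDimensional K V] [IsAlgClosed K]

theorem U_polar (hUi : ∀ x, Q (U x) = Q x) (x y : V) : polar Q (U x) (U y) = polar Q x y := by
  simp only [QuadraticMap.polar]
  rw [← map_add, hUi, hUi, hUi]

/-- `U` trivial on `E_i` and isometric: trivial on `E_(-i)` -/
theorem U_dual (he : Wt φ l a e) (hl : (l : K) ≠ 0) (hN : Au3 Q g m l N) (hQ : Nondeg Q)
    (hUi : ∀ x, Q (U x) = Q x) (hUN : U * N = N * U) {i : ZMod l} (h1 : ∀ x ∈ Ei N (e i), U x = x) {y : V}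
    (hy : y ∈ Ei N (e (-i))) : U y = y := by
  have h2 : U y - y ∈ Ei N (e (-i)) := D_mem hUN hy
  rw [← sub_eq_zero]
  refine he.perp hl hN hQ h2 (fun x hx => ?_)
  rw [neg_neg] at hx
  have h3 := U_polar hUi y x
  rw [h1 x hx] at h3
  rw [polar_sub_left, h3, sub_self]

theorem long_dim (he : Wt φ l a e) (hUN : U * N = N * U) {k : ℕ} (hUk : (U - 1) ^ k = 0) {i : ZMod l}
    (h2 : dd N e i = 2) (h1 : ¬ ∀ x ∈ Ei N (e i), U x = x) : finrank K ((Ei N (e i)).map (U - 1)) = 1 := by
  have h3 : finrank K (Ei N (e i)) = 2 := h2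
  let f : Ei N (e i) →ₗ[K] V := (U - 1).comp (Submodule.subtype _)
  have h4 : LinearMap.range f = (Ei N (e i)).map (U - 1) := by
    rw [LinearMap.range_comp, Submodule.range_subtype]
  have h5 := LinearMap.finrank_range_add_finrank_ker f
  rw [h3, h4] at h5
  have h6 : finrank K ((Ei N (e i)).map (U - 1)) ≤ finrank K (LinearMap.ker f) := by
    rw [← Submodule.finrank_map_subtype_eq (Ei N (e i)) (LinearMap.ker f)]
    apply Submodule.finrank_mono
    rintro _ ⟨x, hx, rfl⟩
    refine ⟨⟨(U - 1) x, D_mem hUN hx⟩, ?_, rfl⟩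
    exact U_sq hUN hUk h2 hx
  have h7 : finrank K ((Ei N (e i)).map (U - 1)) ≠ 0 := by
    intro h8
    rw [Submodule.finrank_eq_zero] at h8
    apply h1
    intro x hx
    have h9 : (U - 1) x ∈ (Ei N (e i)).map (U - 1) := ⟨x, hx, rfl⟩
    rw [h8] at h9
    exact sub_eq_zero.1 ((Submodule.mem_bot K).1 h9)
  omega

theorem long_K (he : Wt φ l a e) (hl : (l : K) ≠ 0) (hN : Au3 Q g m l N) (hQ : Nondeg Q)
    (hUi : ∀ x, Q (U x) = Q x) (hUN : U * N = N * U) {k : ℕ} (hUk : (U - 1) ^ k = 0) (hU1 : U ≠ 1) {i : ZMod l}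
    (hi : 2 * i ≠ 0) (h2 : dd N e i = 2)
    (hoth : ∀ j, j ≠ i → j ≠ -i → ∀ x ∈ Ei N (e j), U x = x) :
    finrank K (LinearMap.range (U - 1)) = 2 ∧ ∀ v, Q (U v - v) = 0 := by
  have h2' : dd N e (-i) = 2 := by rw [he.dd_neg hl hN hQ, h2]
  have hi' : 2 * -i ≠ 0 := by
    intro h
    exact hi (by linear_combination -h)
  have n1 : ¬ ∀ x ∈ Ei N (e i), U x = x := by
    intro h3
    apply hU1
    apply U_one he hl hN
    intro j x hx
    by_cases hj : j = i
    · subst hj; exact h3 x hx
    by_cases hj' : j = -i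
    · subst hj'; exact U_dual he hl hN hQ hUi hUN h3 hx
    exact hoth j hj hj' x hx
  have n2 : ¬ ∀ x ∈ Ei N (e (-i)), U x = x := by
    intro h3
    apply n1
    intro x hx
    have hx' : x ∈ Ei N (e (- -i)) := by rwa [neg_neg]
    exact U_dual he hl hN hQ hUi hUN h3 hx'
  have d1 := long_dim he hUN hUk h2 n1
  have d2 := long_dim he hUN hUk h2' n2
  set A := (Ei N (e i)).map (U - 1) with hA
  set B := (Ei N (e (-i))).map (U - 1) with hB
  have hAle : ∀ x ∈ A, x ∈ Ei N (e i) := by
    rintro _ ⟨x, hx, rfl⟩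
    exact D_mem hUN hx
  have hBle : ∀ x ∈ B, x ∈ Ei N (e (-i)) := by
    rintro _ ⟨x, hx, rfl⟩
    exact D_mem hUN hx
  have hAB : A ⊓ B = ⊥ := by
    rw [eq_bot_iff]
    intro x hx
    have e1 := mem_Ei.1 (hAle x hx.1)
    have e2 := mem_Ei.1 (hBle x hx.2)
    rw [e1, ← sub_eq_zero, ← sub_smul] at e2
    refine (Submodule.mem_bot K).2 ((smul_eq_zero.1 e2).resolve_left (sub_ne_zero.2 fun h => ?_))
    have h3 := he.inj h
    exact hi (by linear_combination h3)
  have hr : ∀ v, (U - 1) v ∈ A ⊔ B := by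
    intro v
    have hv : v ∈ ⨆ j, Ei N (e j) := by rw [he.iSup_eq hl hN.pow]; exact Submodule.mem_top
    induction hv using Submodule.iSup_induction' with
    | mem j y hy =>
      by_cases hj : j = i
      · subst hj
        exact (le_sup_left : A ≤ A ⊔ B) ⟨y, hy, rfl⟩
      by_cases hj' : j = -i
      · subst hj'
        exact (le_sup_right : B ≤ A ⊔ B) ⟨y, hy, rfl⟩
      have h3 : (U - 1) y = 0 := by
        rw [LinearMap.sub_apply, hoth j hj hj' y hy]
        exact sub_self y
      rw [h3]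
      exact Submodule.zero_mem _
    | zero => rw [map_zero]; exact Submodule.zero_mem _
    | add y z _ _ h1 h2 => rw [map_add]; exact Submodule.add_mem _ h1 h2
  have hrange : LinearMap.range (U - 1) = A ⊔ B := by
    apply le_antisymm
    · rintro _ ⟨v, rfl⟩
      exact hr v
    · refine sup_le ?_ ?_
      · rintro _ ⟨x, -, rfl⟩
        exact ⟨x, rfl⟩
      · rintro _ ⟨x, -, rfl⟩
        exact ⟨x, rfl⟩
  refine ⟨?_, ?_⟩
  · have h3 := Submodule.finrank_sup_add_finrank_inf_eq A B
    rw [hAB, finrank_bot, d1, d2] at h3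
    rw [hrange]
    exact h3
  · intro v
    obtain ⟨x, hx, y, hy, hxy⟩ := Submodule.mem_sup.1 (hr v)
    have hxs : Q x = 0 := he.sing hN hi (hAle x hx)
    have hys : Q y = 0 := he.sing hN hi' (hBle y hy)
    obtain ⟨x', hx', rfl⟩ := hx
    obtain ⟨y', hy', rfl⟩ := hy
    have e1 : U y' - y' = (U - 1) y' := rfl
    have e2 : U x' - x' = (U - 1) x' := rfl
    have h3 : polar Q (U x') (U (U y')) = polar Q x' (U y') := U_polar hUi _ _
    have h4 : U (U y') = (2 : K) • U y' - y' := by
      have h5 := U_sq hUN hUk h2' hy'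
      have h6 : (U - 1) ((U - 1) y') = U (U y' - y') - (U y' - y') := rfl
      rw [h6, map_sub] at h5
      rw [two_smul, ← sub_eq_zero, ← h5]
      abel
    have h7 : polar Q (U x') (U y') = polar Q x' y' := U_polar hUi _ _
    rw [h4, sub_eq_add_neg, polar_add_right, polar_smul_right, polar_neg_right, h7, smul_eq_mul] at h3
    have h8 : polar Q ((U - 1) x') ((U - 1) y') = 0 := by
      rw [← e1, ← e2, sub_eq_add_neg, sub_eq_add_neg, polar_add_left, polar_add_right, polar_add_right, polar_neg_left,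
        polar_neg_left, polar_neg_right, h7]
      rw [polar_neg_right] 
      linear_combination h3
    have h9 : U v - v = (U - 1) x' + (U - 1) y' := by
      rw [hxy]; rfl
    rw [h9, Q_add, hxs, hys, h8, add_zero, add_zero]

end long

/-! ### the multiplicities over the algebraic closure -/

section det

variable [Fact l.Prime] [FiniteDimensional K V] [IsAlgClosed K]

theorem det_K (h : TK Q φ g m) (hQ : Nondeg Q) (h8 : finrank K V = 8) (he : Wt φ l a e) (hN : Au3 Q g m l N)
    (ha : a * a + a + 1 = 0) (hl3 : l ≠ 3) (hl : (l : K) ≠ 0) (hN1 : N ≠ 1)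
    (hUm : ∀ x y, U (m x y) = m (U x) (U y)) (hUi : ∀ x, Q (U x) = Q x) (hUN : U * N = N * U) {k : ℕ}
    (hUk : (U - 1) ^ k = 0) (hU1 : U ≠ 1) :
    dd N e 0 = 0 ∧ ((finrank K (LinearMap.range (U - 1)) = 2 ∧ ∀ v, Q (U v - v) = 0) ∨
    ∃ i : ZMod l, i ≠ 0 ∧ dd N e i = 3 ∧ dd N e ((2 * a + 1) * i) = 1) := by
  have hb : a * (-1 - a) = 1 := by linear_combination -ha
  have h2' := two_ne ha
  have h3' := three_ne hl3
  have ha0 : a ≠ 0 := by
    intro h0
    rw [h0] at ha
    exact one_ne_zero (by linear_combination ha)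
  have ha1 : a ≠ 1 := by
    intro h0
    rw [h0] at ha
    exact h3' (by linear_combination ha)
  have ha2 : a ≠ -1 := by
    intro h0
    rw [h0] at ha
    exact one_ne_zero (by linear_combination ha)
  have hneg := he.dd_neg hl hN hQ
  have hsum : ∑ i, dd N e i = 8 := by rw [he.sum_dd hl hN.pow, h8]
  have h0 : dd N e 0 = 0 := by
    by_contra h00
    obtain ⟨k0, hk0, hkQ⟩ : ∃ k0 ∈ Ei N (e 0), Q k0 ≠ 0 := by
      by_contra hcon
      push Not at hcon
      obtain ⟨x, hx, hx0⟩ := nontriv h00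
      apply hx0
      refine he.perp hl hN hQ hx (fun y hy => ?_)
      rw [neg_zero] at hy
      rw [QuadraticMap.polar, hcon _ (Submodule.add_mem _ hx hy), hcon _ hx, hcon _ hy, sub_zero, sub_zero]
    have hle : ∀ i, dd N e i ≤ dd N e (a * i) := by
      intro i
      exact semi_finrank_le (K := K) (ψ := φ)
        (fun w : Ei N (e i) => (⟨m k0 w, by
            have h3 := he.mul_mem h hN hb hk0 w.2
            rwa [mul_zero, zero_add] at h3⟩ : Ei N (e (a * i))))
        (fun x y => Subtype.ext (h.add_right _ _ _)) (fun k x => Subtype.ext (h.smul_right _ _ _))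
        (fun w hw => by
          have h4 : m k0 w = 0 := congrArg Subtype.val hw
          have h5 := h.left k0 w
          rw [h4, h.zero_left] at h5
          apply Subtype.ext
          refine (smul_eq_zero.1 h5.symm).resolve_left (fun h6 => hkQ ?_)
          exact φ.symm.injective (φ.symm.injective (by rw [h6, map_zero, map_zero])))
    have heq := inv_of_le ha0 hle
    have hone : ∀ i, i ≠ 0 → dd N e i ≤ 1 := by
      intro i hi
      have h9 := sum5 hneg hsum h2' hi ha0 ha1 ha2
      rw [heq] at h9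
      omega
    have htriv : ∀ i, i ≠ 0 → ∀ x ∈ Ei N (e i), U x = x := fun i hi x hx => U_line hUN hUk (hone i hi) hx
    obtain ⟨i, hi, hi'⟩ : ∃ i, i ≠ 0 ∧ dd N e i ≠ 0 := by
      by_contra hcon
      push Not at hcon
      apply hN1
      apply U_one (U := N) he hl hN
      intro i x hx
      by_cases hi : i = 0
      · subst hi
        rw [mem_Ei, he.zero, one_smul] at hx
        exact hx
      · rw [zero_of (hcon i hi) hx, map_zero]
    obtain ⟨x, hx, hx0⟩ := nontriv hi'
    obtain ⟨y, hy, hxy⟩ := he.exists_dual hl hN hQ hx hx0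
    apply hU1
    apply U_one he hl hN
    intro j z hz
    by_cases hj : j = 0
    · subst hj
      have key : ∀ (j : ZMod l) (w : V), j ≠ 0 → w ∈ Ei N (e j) → m (U z - z) w = 0 := by
        intro j w hj hw
        have h3 := he.mul_mem h hN hb hz hw
        rw [mul_zero, zero_add] at h3
        have h4 := htriv _ (mul_ne_zero ha0 hj) _ h3
        rw [hUm, htriv j hj w hw] at h4
        rw [h.sub_left, h4, sub_self]
      exact sub_eq_zero.1 (h.eq_zero_of' hxy (key i x hi hx) (key (-i) y (neg_ne_zero.2 hi) hy))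
    · exact htriv j hj z hz
  refine ⟨h0, ?_⟩
  obtain ⟨i, hi2⟩ : ∃ i, 2 ≤ dd N e i := by
    by_contra hcon
    push Not at hcon
    exact hU1 (U_one he hl hN (fun i x hx => U_line hUN hUk (Nat.lt_succ_iff.1 (hcon i)) hx))
  have hi0 : i ≠ 0 := by
    intro h1
    rw [h1] at hi2
    omega
  have hcdef : 2 * a + 1 = 2 * a + 1 := rfl
  generalize hc : 2 * a + 1 = c at hcdef ⊢
  have hc2 : c * c = -3 := by rw [← hc]; linear_combination 4 * ha
  have hc0 : c ≠ 0 := by
    intro h1
    rw [h1] at hc2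
    exact h3' (by linear_combination hc2)
  have h4' : (4 : ZMod l) ≠ 0 := by
    intro h1
    exact mul_ne_zero h2' h2' (by linear_combination h1)
  have h12' : (12 : ZMod l) ≠ 0 := by
    intro h1
    exact mul_ne_zero h4' h3' (by linear_combination h1)
  have hc1 : c ≠ 1 := by
    intro h1
    rw [h1] at hc2
    exact h4' (by linear_combination hc2)
  have hcm : c ≠ -1 := by
    intro h1
    rw [h1] at hc2
    exact h4' (by linear_combination hc2)
  have hd1 : dd N e (c * i) ≠ 0 := by
    rw [← hc]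
    exact claim1 h hQ he hN ha hl hi2
  have h5 := sum5 hneg hsum h2' hi0 hc0 hc1 hcm
  by_cases h3 : dd N e i = 3
  · right
    exact ⟨i, hi0, h3, by omega⟩
  have hi3 : dd N e i = 2 := by omega
  have hci : dd N e (c * i) = 1 := by
    by_contra hcon
    have hci2 : 2 ≤ dd N e (c * i) := by omega
    have h6 := claim1 h hQ he hN ha hl hci2
    have h7 : (2 * a + 1) * (c * i) = -3 * i := by rw [hc]; linear_combination i * hc2
    rw [h7] at h6
    have h8 := sum7 hneg hsum h2' hi0 hc0 hc1 hcm (j := -3 * i) (mul_ne_zero (neg_ne_zero.2 h3') hi0)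
      (fun h1 => mul_ne_zero h4' hi0 (by linear_combination -h1))
      (fun h1 => mul_ne_zero h2' hi0 (by linear_combination -h1))
      (fun h1 => mul_ne_zero h12' hi0 (by linear_combination (c - 3) * h1 + i * hc2))
      (fun h1 => mul_ne_zero h12' hi0 (by linear_combination (-c - 3) * h1 + i * hc2))
    omega
  left
  refine long_K he hl hN hQ hUi hUN hUk hU1 (i := i) (mul_ne_zero h2' hi0) hi3 (fun j hj hj' x hx => ?_)
  refine U_line hUN hUk ?_ hx
  by_contra hcon
  push Not at hcon
  have hj0 : j ≠ 0 := by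
    intro h1
    rw [h1] at hcon
    omega
  have hj1 : j ≠ c * i := by
    intro h1
    rw [h1] at hcon
    omega
  have hj2 : j ≠ -(c * i) := by
    intro h1
    rw [h1, hneg] at hcon
    omega
  have h9 := sum7 hneg hsum h2' hi0 hc0 hc1 hcm hj0 hj hj' hj1 hj2
  omega

end det

/-! ### descent to the finite field -/

section desc

open Cfsg.Agent.LieClassical.OrthSimple Cfsg.Agent.ClassicalGeometry.OrthAut1
  Cfsg.Agent.ClassicalGeometry.OrthSemi Cfsg.Agent.H198.Classes
  Cfsg.Agent.LieClassical.QuadForms Cfsg.Agent.H198.ClassesPlus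
  Cfsg.Agent.ClassicalGeometry.TrialityOct Cfsg.Agent.ClassicalGeometry.Triality
  Cfsg.Agent.ClassicalGeometry.TrialitySpaces Cfsg.Agent.H198.TriBase Cfsg.Agent.H198.TriAut
  Cfsg.Agent.H198.TriDia Cfsg.Agent.H198.TriTC Cfsg.Agent.H198.TwComp

section io

variable {F K : Type u} [Field F] [Field K] [Algebra F K]

theorem ext_io {f f' : V8 K →ₗ[K] V8 K} (h : ∀ x : V8 F, f (io K x) = f' (io K x)) : f = f' := by
  apply LinearMap.ext
  intro v
  refine io_induction (F := F) (P := fun v => f v = f' v) h ?_ ?_ v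
  · intro x y hx hy
    rw [map_add, map_add, hx, hy]
  · intro k x hx
    rw [map_smul, map_smul, hx]

theorem io_li {ι : Type*} {b : ι → V8 F} (hb : LinearIndependent F b) :
    LinearIndependent K (fun i => io K (b i)) := by
  rw [linearIndependent_iff'] at hb ⊢
  intro s k hk i hi
  rw [← Module.forall_dual_apply_eq_zero_iff F]
  intro f
  refine hb s (fun j => f (k j)) ?_ i hi
  funext t
  have h1 := congrFun hk t
  rw [Finset.sum_apply] at h1 ⊢
  have h2 := congrArg f h1
  rw [map_sum] at h2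
  refine Eq.trans (Finset.sum_congr rfl fun j _ => ?_) (h2.trans (map_zero f))
  change f (k j) * b j t = f (k j * algebraMap F K (b j t))
  rw [mul_comm (k j), ← Algebra.smul_def, map_smul, smul_eq_mul, mul_comm]

theorem io_le {W : Submodule F (V8 F)} {W' : Submodule K (V8 K)} (h : ∀ x ∈ W, io K x ∈ W') :
    finrank F W ≤ finrank K W' := by
  let b := Module.finBasis F W
  have h1 : LinearIndependent F (fun i => (b i : V8 F)) :=
    b.linearIndependent.map' W.subtype (Submodule.ker_subtype W)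
  have h2 := io_li (K := K) h1
  have h3 : LinearIndependent K (fun i => (⟨io K (b i : V8 F), h _ (b i).2⟩ : W')) :=
    LinearIndependent.of_comp W'.subtype h2
  have h4 := h3.fintype_card_le_finrank
  rwa [Fintype.card_fin] at h4

theorem finrank8 (F : Type u) [Field F] : finrank F (V8 F) = 8 := by
  rw [Module.finrank_fintype_fun_eq_card]
  rfl

theorem exN_rank (f : V8 F →ₗ[F] V8 F) : finrank F (LinearMap.ker f) = finrank K (LinearMap.ker (exN K f)) ∧
    finrank F (LinearMap.range f) = finrank K (LinearMap.range (exN K f)) := by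
  have h1 : finrank F (LinearMap.ker f) ≤ finrank K (LinearMap.ker (exN K f)) := by
    refine io_le fun x hx => ?_
    rw [LinearMap.mem_ker] at hx ⊢
    rw [exN_io, hx]
    exact funext fun _ => map_zero _
  have h2 : finrank F (LinearMap.range f) ≤ finrank K (LinearMap.range (exN K f)) := by
    refine io_le fun x hx => ?_
    obtain ⟨y, rfl⟩ := hx
    exact ⟨io K y, exN_io f y⟩
  have h3 := LinearMap.finrank_range_add_finrank_ker f
  have h4 := LinearMap.finrank_range_add_finrank_ker (exN K f)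
  rw [finrank8] at h3 h4
  omega

end io

theorem mem_range_of_pow {F : Type u} [Field F] [Finite F] {L : Type u} [Field L] [Algebra F L]
    {x : L} (hx : x ^ Nat.card F = x) : ∃ y : F, algebraMap F L y = x := by
  classical
  have := Fintype.ofFinite F
  rw [Nat.card_eq_fintype_card] at hx
  have hne : (Polynomial.X ^ Fintype.card F - Polynomial.X : Polynomial L) ≠ 0 :=
    FiniteField.X_pow_card_sub_X_ne_zero L Fintype.one_lt_card
  have hsub : (Finset.univ.image (algebraMap F L)) ⊆
      (Polynomial.X ^ Fintype.card F - Polynomial.X : Polynomial L).roots.toFinset := by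
    intro y hy
    rw [Finset.mem_image] at hy
    obtain ⟨z, -, rfl⟩ := hy
    rw [Multiset.mem_toFinset, Polynomial.mem_roots hne, Polynomial.IsRoot.def, Polynomial.eval_sub,
      Polynomial.eval_pow, Polynomial.eval_X, ← map_pow, FiniteField.pow_card, sub_self]
  have hcard : (Polynomial.X ^ Fintype.card F - Polynomial.X : Polynomial L).roots.toFinset.card ≤
      (Finset.univ.image (algebraMap F L)).card := by
    rw [Finset.card_image_of_injective _ (algebraMap F L).injective, Finset.card_univ]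
    refine (Multiset.toFinset_card_le _).trans ((Polynomial.card_roots' _).trans ?_)
    rw [FiniteField.X_pow_card_sub_X_natDegree_eq L Fintype.one_lt_card]
  have heq := Finset.eq_of_subset_of_card_le hsub hcard
  have hmem : x ∈ (Polynomial.X ^ Fintype.card F - Polynomial.X : Polynomial L).roots.toFinset := by
    rw [Multiset.mem_toFinset, Polynomial.mem_roots hne, Polynomial.IsRoot.def, Polynomial.eval_sub,
      Polynomial.eval_pow, Polynomial.eval_X, hx, sub_self]
  rw [← heq, Finset.mem_image] at hmem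
  obtain ⟨y, -, hy⟩ := hmem
  exact ⟨y, hy⟩

section phi

variable {F : Type u} [Field F]

theorem lF_ne [Finite F] {q0 : ℕ} (hq : Nat.card F = q0 ^ 3) {l : ℕ} (hl : l.Prime) (hlq : ¬ l ∣ q0) : (l : F) ≠ 0 := by
  intro h4
  have h5 := Fintype.ofFinite F
  obtain ⟨p, hp⟩ := CharP.exists F
  have hppr : p.Prime := (CharP.char_is_prime_or_zero F p).resolve_right
    (fun h0 => CharP.char_ne_zero_of_finite F p h0)
  have h6 : p ∣ l := (CharP.cast_eq_zero_iff F p l).1 h4
  have h7 : p = l := (Nat.prime_dvd_prime_iff_eq hppr hl).1 h6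
  subst h7
  have : Fact p.Prime := ⟨hppr⟩
  obtain ⟨m, -, hm⟩ := FiniteField.card F p
  have h8 : p ∣ Nat.card F := by
    rw [Nat.card_eq_fintype_card, hm]
    exact dvd_pow_self p m.pos.ne'
  rw [hq] at h8
  exact hlq (hppr.dvd_of_dvd_pow h8)

/-- the `q`-Frobenius of the algebraic closure -/
theorem exists_frq (F : Type u) [Field F] [Finite F] :
    ∃ f : AlgebraicClosure F ≃+* AlgebraicClosure F, ∀ x, f x = x ^ Nat.card F := by
  have h5 := Fintype.ofFinite F
  obtain ⟨p, hp⟩ := CharP.exists F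
  have hppr : p.Prime := (CharP.char_is_prime_or_zero F p).resolve_right
    (fun h0 => CharP.char_ne_zero_of_finite F p h0)
  have : Fact p.Prime := ⟨hppr⟩
  obtain ⟨m, -, hm⟩ := FiniteField.card F p
  have : CharP (AlgebraicClosure F) p := charP_of_injective_algebraMap (algebraMap F (AlgebraicClosure F)).injective p
  have : ExpChar (AlgebraicClosure F) p := ExpChar.prime hppr
  refine ⟨iterateFrobeniusEquiv (AlgebraicClosure F) p m, fun x => ?_⟩
  rw [iterateFrobeniusEquiv_def, Nat.card_eq_fintype_card, hm]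

/-- an extension of `s` to the algebraic closure, of order three on the `l`-th roots of unity -/
theorem exists_phi' [Finite F] {s : F ≃+* F} {q0 : ℕ} (hq0 : IsPrimePow q0) (hq : Nat.card F = q0 ^ 3)
    (hs : (∀ a : F, s a = a ^ q0) ∨ ∀ a : F, s a = a ^ (q0 ^ 2)) {l : ℕ} (hl : l.Prime) (hlq : ¬ l ∣ q0)
    (h1 : l ∣ q0 ^ 2 + q0 + 1 ∨ l ∣ q0 ^ 2 - q0 + 1) :
    ∃ (φ : AlgebraicClosure F ≃+* AlgebraicClosure F) (k : ℕ),
      (∀ a, φ (algebraMap F (AlgebraicClosure F) a) = algebraMap F (AlgebraicClosure F) (s a)) ∧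
      (∀ c : AlgebraicClosure F, c ^ l = 1 → φ c = c ^ k) ∧
      (k : ZMod l) * k + k + 1 = 0 := by
  obtain ⟨φ, k, hφ, hk, hka⟩ := exists_phi hq0 hq hs hl hlq
  rcases h1 with h1 | h1
  · have hq2 : (q0 : ZMod l) * q0 + q0 + 1 = 0 := by
      have h4 : ((q0 ^ 2 + q0 + 1 : ℕ) : ZMod l) = 0 := (ZMod.natCast_eq_zero_iff _ _).2 h1
      push_cast at h4
      linear_combination h4
    refine ⟨φ, k, hφ, hk, ?_⟩
    rcases hka with h | h
    · rw [h]; exact hq2
    · linear_combination (k : ZMod l) ^ 2 * hq2 - ((k : ZMod l) * q0 + 1 + k) * h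
  · have hle : q0 ≤ q0 ^ 2 := Nat.le_self_pow two_ne_zero q0
    have hq2 : (q0 : ZMod l) * q0 - q0 + 1 = 0 := by
      have h4 : ((q0 ^ 2 - q0 + 1 : ℕ) : ZMod l) = 0 := (ZMod.natCast_eq_zero_iff _ _).2 h1
      rw [Nat.cast_add, Nat.cast_sub hle, Nat.cast_pow, Nat.cast_one] at h4
      linear_combination h4
    have hkk : (k : ZMod l) * k - k + 1 = 0 := by
      rcases hka with h | h
      · rw [h]; exact hq2
      · linear_combination (k : ZMod l) ^ 2 * hq2 - ((k : ZMod l) * q0 + 1 - k) * h
    obtain ⟨f, hf⟩ := exists_frq F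
    refine ⟨φ.trans f, k * Nat.card F, fun a => ?_, fun c hc => ?_, ?_⟩
    · rw [RingEquiv.trans_apply, hφ, hf, ← map_pow]
      congr 1
      have := Fintype.ofFinite F
      rw [Nat.card_eq_fintype_card]
      exact FiniteField.pow_card _
    · rw [RingEquiv.trans_apply, hk c hc, hf, ← pow_mul]
    · rw [Nat.cast_mul, hq, Nat.cast_pow]
      have h5 : (k : ZMod l) * (q0 : ZMod l) ^ 3 = -k := by linear_combination (k : ZMod l) * ((q0 : ZMod l) + 1) * hq2
      rw [h5]
      linear_combination hkk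

end phi

section wt

variable {K : Type u} [Field K] {φ : K ≃+* K} {l : ℕ} {a : ZMod l} {e : ZMod l → K}

theorem e_pow (he : Wt φ l a e) (i : ZMod l) (n : ℕ) : e ((n : ZMod l) * i) = e i ^ n := by
  induction n with
  | zero => rw [Nat.cast_zero, zero_mul, he.zero, pow_zero]
  | succ n ih => rw [Nat.cast_succ, add_mul, one_mul, he.add, ih, pow_succ]

theorem e_pow_l (he : Wt φ l a e) (i : ZMod l) : e i ^ l = 1 := by
  rw [← e_pow he, ZMod.natCast_self, zero_mul, he.zero]

theorem e_neg (he : Wt φ l a e) (i : ZMod l) : e (-i) = (e i)⁻¹ := by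
  have h1 := he.add i (-i)
  rw [add_neg_cancel, he.zero] at h1
  exact eq_inv_of_mul_eq_one_right h1.symm

end wt

/-! ### the theorem -/

section fin

/-- `c + c⁻¹ = τ` -/
def qf {K V : Type*} [Field K] [AddCommGroup V] [Module K V] (N : V →ₗ[K] V) (t : K) : V →ₗ[K] V :=
  N * N - t • N + 1

theorem qf_apply {K V : Type*} [Field K] [AddCommGroup V] [Module K V] (N : V →ₗ[K] V) (t : K) (v : V) :
    qf N t v = N (N v) - t • N v + v := rfl

theorem ker_qf {K V : Type*} [Field K] [AddCommGroup V] [Module K V] [FiniteDimensional K V] {N : V →ₗ[K] V}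
    {x y : K} (hxy : x * y = 1) (hne : x ≠ y) :
    finrank K (LinearMap.ker (qf N (x + y))) = finrank K (Ei N x) + finrank K (Ei N y) := by
  have h1 : LinearMap.ker (qf N (x + y)) = Ei N x ⊔ Ei N y := by
    apply le_antisymm
    · intro v hv
      rw [LinearMap.mem_ker, qf_apply] at hv
      have hd : x - y ≠ 0 := sub_ne_zero.2 hne
      have e1 : v = (x - y)⁻¹ • (N v - y • v) + (-(x - y)⁻¹) • (N v - x • v) := by
        have h2 : (x - y)⁻¹ • (N v - y • v) + (-(x - y)⁻¹) • (N v - x • v) = ((x - y)⁻¹ * (x - y)) • v := by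
          module
        rw [h2, inv_mul_cancel₀ hd, one_smul]
      have hv' : N (N v) = (x + y) • N v - v := by
        rw [← sub_eq_zero, ← hv]
        abel
      rw [e1]
      refine Submodule.add_mem _ (Submodule.smul_mem _ _ ((le_sup_left : Ei N x ≤ Ei N x ⊔ Ei N y) ?_))
        (Submodule.smul_mem _ _ ((le_sup_right : Ei N y ≤ Ei N x ⊔ Ei N y) ?_))
      · rw [mem_Ei, map_sub, map_smul, hv', smul_sub, smul_smul, hxy, one_smul]
        module
      · rw [mem_Ei, map_sub, map_smul, hv', smul_sub, smul_smul, mul_comm y x, hxy, one_smul]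
        module
    · refine sup_le ?_ ?_
      · intro v hv
        rw [mem_Ei] at hv
        rw [LinearMap.mem_ker, qf_apply, hv, map_smul, hv, smul_smul, smul_smul]
        have h2 : (x * x) • v - ((x + y) * x) • v + v = (1 - x * y) • v := by module
        rw [h2, hxy, sub_self, zero_smul]
      · intro v hv
        rw [mem_Ei] at hv
        rw [LinearMap.mem_ker, qf_apply, hv, map_smul, hv, smul_smul, smul_smul]
        have h2 : (y * y) • v - ((x + y) * y) • v + v = (1 - x * y) • v := by module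
        rw [h2, hxy, sub_self, zero_smul]
  have h2 : Ei N x ⊓ Ei N y = ⊥ := by
    rw [eq_bot_iff]
    intro v hv
    have e1 := mem_Ei.1 hv.1
    have e2 := mem_Ei.1 hv.2
    rw [e1, ← sub_eq_zero, ← sub_smul] at e2
    exact (Submodule.mem_bot K).2 ((smul_eq_zero.1 e2).resolve_left (sub_ne_zero.2 hne))
  have h3 := Submodule.finrank_sup_add_finrank_inf_eq (Ei N x) (Ei N y)
  rw [h2, finrank_bot, add_zero] at h3
  rw [h1, h3]

variable {F : Type u} [Field F] {K : Type u} [Field K] [Algebra F K]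

theorem exN_eig (c : V8 F →ₗ[F] V8 F) (b : F) :
    exN K (c - b • 1) = exN K c - (algebraMap F K b) • 1 := by
  refine ext_io (F := F) fun x => ?_
  have e1 : (c - b • (1 : V8 F →ₗ[F] V8 F)) x = c x + (-b) • x := by
    rw [LinearMap.sub_apply, neg_smul, ← sub_eq_add_neg]; rfl
  have e2 : (exN K c - (algebraMap F K b) • (1 : V8 K →ₗ[K] V8 K)) (io K x) =
      exN K c (io K x) - (algebraMap F K b) • io K x := rfl
  rw [exN_io, e1, e2, exN_io, io_add, io_smul, map_neg, neg_smul, ← sub_eq_add_neg]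

theorem exN_qf (c : V8 F →ₗ[F] V8 F) (b : F) : exN K (qf c b) = qf (exN K c) (algebraMap F K b) := by
  refine ext_io (F := F) fun x => ?_
  have e1 : qf c b x = c (c x) + (-b) • c x + x := by
    rw [qf_apply, neg_smul, ← sub_eq_add_neg]
  have e2 : qf (exN K c) (algebraMap F K b) (io K x) =
      exN K c (exN K c (io K x)) - (algebraMap F K b) • exN K c (io K x) + io K x := rfl
  rw [exN_io, e1, e2, exN_io, exN_io, io_add, io_add, io_smul, map_neg, neg_smul, ← sub_eq_add_neg]

theorem eig_rank (c : V8 F →ₗ[F] V8 F) (b : F) :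
    finrank F (Module.End.eigenspace c b) = finrank K (Ei (exN K c) (algebraMap F K b)) := by
  have h1 := (exN_rank (K := K) (c - b • (1 : V8 F →ₗ[F] V8 F))).1
  rw [exN_eig] at h1
  rw [Module.End.eigenspace_def, Ei, Module.End.eigenspace_def]
  exact h1

/-- the descent for `l ∣ q - 1` -/
theorem fin_plus {c : V8 F →ₗ[F] V8 F} {φ : K ≃+* K} {l : ℕ} {a : ZMod l} {e : ZMod l → K} (he : Wt φ l a e)
    (hF : ∀ i, ∃ b : F, algebraMap F K b = e i) (hneg : ∀ i, dd (exN K c) e (-i) = dd (exN K c) e i) {i j : ZMod l}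
    (hi : 2 * i ≠ 0) (hj : 2 * j ≠ 0) (hij : i ≠ j) (hij' : i + j ≠ 0) (h3 : dd (exN K c) e i = 3)
    (h1 : dd (exN K c) e j = 1) :
    ∃ a b : F, a ≠ 0 ∧ b ≠ 0 ∧ a * a ≠ 1 ∧ b * b ≠ 1 ∧ a ≠ b ∧ a * b ≠ 1 ∧
      finrank F (Module.End.eigenspace c a) = 3 ∧ finrank F (Module.End.eigenspace c a⁻¹) = 3 ∧
      finrank F (Module.End.eigenspace c b) = 1 ∧ finrank F (Module.End.eigenspace c b⁻¹) = 1 := by
  obtain ⟨x, hx⟩ := hF i
  obtain ⟨y, hy⟩ := hF j
  have hx' : algebraMap F K x⁻¹ = e (-i) := by rw [map_inv₀, hx, e_neg he]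
  have hy' : algebraMap F K y⁻¹ = e (-j) := by rw [map_inv₀, hy, e_neg he]
  have key : ∀ (k k' : ZMod l), k + k' ≠ 0 → e k * e k' ≠ 1 := by
    intro k k' hk h
    apply hk
    apply he.inj
    rw [he.add, h, he.zero]
  refine ⟨x, y, ?_, ?_, ?_, ?_, ?_, ?_, ?_, ?_, ?_, ?_⟩
  · rintro rfl
    exact he.ne i (by rw [← hx, map_zero])
  · rintro rfl
    exact he.ne j (by rw [← hy, map_zero])
  · intro h
    apply key i i (by rwa [← two_mul])
    rw [← hx, ← map_mul, h, map_one]
  · intro h
    apply key j j (by rwa [← two_mul])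
    rw [← hy, ← map_mul, h, map_one]
  · intro h
    apply hij
    apply he.inj
    rw [← hx, ← hy, h]
  · intro h
    apply key i j hij'
    rw [← hx, ← hy, ← map_mul, h, map_one]
  · rw [eig_rank (K := K), hx]; exact h3
  · rw [eig_rank (K := K), hx']; exact (hneg i).trans h3
  · rw [eig_rank (K := K), hy]; exact h1
  · rw [eig_rank (K := K), hy']; exact (hneg j).trans h1

/-- the descent for `l ∣ q + 1` -/
theorem fin_minus {c : V8 F →ₗ[F] V8 F} {φ : K ≃+* K} {l : ℕ} {a : ZMod l} {e : ZMod l → K} (he : Wt φ l a e)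
    (hF : ∀ i, ∃ b : F, algebraMap F K b = e i + e (-i)) (hneg : ∀ i, dd (exN K c) e (-i) = dd (exN K c) e i)
    {i j : ZMod l}
    (hi : 2 * i ≠ 0) (hj : 2 * j ≠ 0) (hij : i ≠ j) (hij' : i + j ≠ 0) (h3 : dd (exN K c) e i = 3)
    (h1 : dd (exN K c) e j = 1) (hiso : ∀ x, plusForm 4 F (c x) = plusForm 4 F x) (hinj : ∀ x, c x = 0 → x = 0)
    (hno : ∀ v, ∀ a : F, c v = a • v → v = 0) :
    ∃ (W : Submodule F (V8 F)) (τ τ' : F), finrank F W = 6 ∧
      (∀ v ∈ W, (∀ w ∈ W, polar (plusForm 4 F) v w = 0) → v = 0) ∧ τ ≠ τ' ∧ (∀ v ∈ W, c (c v) + v = τ • c v) ∧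
      (∀ v, (∀ w ∈ W, polar (plusForm 4 F) v w = 0) → c (c v) + v = τ' • c v) ∧
      (∀ v ∈ W, ∀ a : F, c v = a • v → v = 0) ∧
      (∀ v, (∀ w ∈ W, polar (plusForm 4 F) v w = 0) → ∀ a : F, c v = a • v → v = 0) := by
  obtain ⟨x, hx⟩ := hF i
  obtain ⟨y, hy⟩ := hF j
  have hone : ∀ k, e k * e (-k) = 1 := fun k => by rw [← he.add, add_neg_cancel, he.zero]
  have hne : ∀ k : ZMod l, 2 * k ≠ 0 → e k ≠ e (-k) := by
    intro k hk h
    apply hk
    have := he.inj h
    linear_combination this
  have r1 : finrank F (LinearMap.ker (qf c x)) = 6 := by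
    rw [(exN_rank (K := K) (qf c x)).1, exN_qf, hx, ker_qf (hone i) (hne i hi)]
    change dd (exN K c) e i + dd (exN K c) e (-i) = 6
    rw [hneg, h3]
  have r2 : finrank F (LinearMap.ker (qf c y)) = 2 := by
    rw [(exN_rank (K := K) (qf c y)).1, exN_qf, hy, ker_qf (hone j) (hne j hj)]
    change dd (exN K c) e j + dd (exN K c) e (-j) = 2
    rw [hneg, h1]
  have hxy : x ≠ y := by
    intro h
    have e1 : e i + e (-i) = e j + e (-j) := by rw [← hx, ← hy, h]
    have e2 : (e i - e j) * (e i * e j - 1) = 0 := by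
      have h4 := hone i
      have h5 := hone j
      linear_combination (e i * e j) * e1 - e j * h4 + e i * h5
    rcases mul_eq_zero.1 e2 with h6 | h6
    · exact hij (he.inj (sub_eq_zero.1 h6))
    · apply hij'
      apply he.inj
      rw [he.add, sub_eq_zero.1 h6, he.zero]
  have mem : ∀ (t : F) (v : V8 F), v ∈ LinearMap.ker (qf c t) ↔ c (c v) + v = t • c v := by
    intro t v
    rw [LinearMap.mem_ker, qf_apply, ← sub_eq_zero (b := t • c v)]
    constructor
    · intro h
      rw [← h]; abel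
    · intro h
      rw [← h]; abel
  have hpol : ∀ v w : V8 F, polar (plusForm 4 F) (c v) (c w) = polar (plusForm 4 F) v w := by
    intro v w
    simp only [QuadraticMap.polar]
    rw [← map_add, hiso, hiso, hiso]
  have orth : ∀ v ∈ LinearMap.ker (qf c x), ∀ w ∈ LinearMap.ker (qf c y), polar (plusForm 4 F) v w = 0 := by
    intro v hv w hw
    rw [mem] at hv hw
    have e1 : polar (plusForm 4 F) (c (c v) + v) (c w) = x * polar (plusForm 4 F) v w := by
      rw [hv, polar_smul_left, hpol, smul_eq_mul]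
    have e2 : polar (plusForm 4 F) (c v) (c (c w) + w) = y * polar (plusForm 4 F) v w := by
      rw [hw, polar_smul_right, hpol, smul_eq_mul]
    rw [polar_add_left, hpol] at e1
    rw [polar_add_right, hpol] at e2
    have e3 : (x - y) * polar (plusForm 4 F) v w = 0 := by
      linear_combination e2 - e1
    exact (mul_eq_zero.1 e3).resolve_left (sub_ne_zero.2 hxy)
  have hinf : LinearMap.ker (qf c x) ⊓ LinearMap.ker (qf c y) = ⊥ := by
    rw [eq_bot_iff]
    intro v hv
    have e1 := (mem x v).1 hv.1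
    have e2 := (mem y v).1 hv.2
    rw [e1, ← sub_eq_zero, ← sub_smul] at e2
    exact (Submodule.mem_bot F).2 (hinj v ((smul_eq_zero.1 e2).resolve_left (sub_ne_zero.2 hxy)))
  have hsup : LinearMap.ker (qf c x) ⊔ LinearMap.ker (qf c y) = ⊤ := by
    apply Submodule.eq_top_of_finrank_eq
    have h4 := Submodule.finrank_sup_add_finrank_inf_eq (LinearMap.ker (qf c x)) (LinearMap.ker (qf c y))
    rw [hinf, finrank_bot, r1, r2] at h4
    rw [finrank8]
    exact h4
  have hdec : ∀ v : V8 F, ∃ w ∈ LinearMap.ker (qf c x), ∃ w' ∈ LinearMap.ker (qf c y), w + w' = v := by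
    intro v
    apply Submodule.mem_sup.1
    rw [hsup]
    exact Submodule.mem_top
  have hnd : ∀ v ∈ LinearMap.ker (qf c x), (∀ w ∈ LinearMap.ker (qf c x), polar (plusForm 4 F) v w = 0) → v = 0 := by
    intro v hv hvw
    apply Cfsg.Agent.ClassicalGeometry.Triality.nondeg8
    intro z
    obtain ⟨w, hw, w', hw', rfl⟩ := hdec z
    rw [polar_add_right, hvw w hw, orth v hv w' hw', add_zero]
  refine ⟨LinearMap.ker (qf c x), x, y, r1, hnd, hxy, fun v hv => (mem x v).1 hv, fun v hv => ?_,
    fun v _ => hno v, fun v _ => hno v⟩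
  obtain ⟨w, hw, w', hw', rfl⟩ := hdec v
  have h4 : w = 0 := by
    apply hnd w hw
    intro z hz
    have h5 := hv z hz
    rw [polar_add_left, polar_comm (plusForm 4 F) w' z, orth z hz w' hw', add_zero] at h5
    exact h5
  rw [h4, zero_add]
  exact (mem y w').1 hw'

/-- (MIX-M), part (d): `c ∈ AutD (fG s)` of prime order `l ∣ q₀² ± q₀ + 1`, `l ≠ 3`, commuting with an element
`u ≠ 1` of `AutD (fG s)` of order `p` -/
theorem det_mult {F : Type u} [Field F] [Finite F] {s : F ≃+* F} (h3 : ∀ a, s (s (s a)) = a)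
    (hne : s ≠ RingEquiv.refl F) {q0 : ℕ}
    (hq : Nat.card F = q0 ^ 3) {c u : V8 F ≃ₗ[F] V8 F} (hc : c ∈ AutD (fG s)) (hu : u ∈ AutD (fG s)) {l : ℕ}
    (hl : l.Prime) (hl3 : l ≠ 3) (h1 : l ∣ q0 ^ 2 + q0 + 1 ∨ l ∣ q0 ^ 2 - q0 + 1) (hcl : c ^ l = 1) (hc1 : c ≠ 1)
    {p : ℕ} [CharP F p] (hp : p.Prime) (hup : u ^ p = 1) (hu1 : u ≠ 1) (huc : u * c = c * u) :
    (finrank F (LinearMap.range ((u : V8 F →ₗ[F] V8 F) - LinearMap.id)) = 2 ∧
      ∀ v, plusForm 4 F (u v - v) = 0) ∨
    (∃ a b : F, a ≠ 0 ∧ b ≠ 0 ∧ a * a ≠ 1 ∧ b * b ≠ 1 ∧ a ≠ b ∧ a * b ≠ 1 ∧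
      finrank F (Module.End.eigenspace (c : V8 F →ₗ[F] V8 F) a) = 3 ∧
      finrank F (Module.End.eigenspace (c : V8 F →ₗ[F] V8 F) a⁻¹) = 3 ∧
      finrank F (Module.End.eigenspace (c : V8 F →ₗ[F] V8 F) b) = 1 ∧
      finrank F (Module.End.eigenspace (c : V8 F →ₗ[F] V8 F) b⁻¹) = 1) ∨
    (∃ (W : Submodule F (V8 F)) (τ τ' : F), finrank F W = 6 ∧
      (∀ v ∈ W, (∀ w ∈ W, polar (plusForm 4 F) v w = 0) → v = 0) ∧ τ ≠ τ' ∧ (∀ v ∈ W, c (c v) + v = τ • c v) ∧
      (∀ v, (∀ w ∈ W, polar (plusForm 4 F) v w = 0) → c (c v) + v = τ' • c v) ∧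
      (∀ v ∈ W, ∀ a : F, c v = a • v → v = 0) ∧
      (∀ v, (∀ w ∈ W, polar (plusForm 4 F) v w = 0) → ∀ a : F, c v = a • v → v = 0)) := by
  obtain ⟨q1, hq1, hq1', hpp, -, hs⟩ := BQ h3 hne
  have hqq : q1 = q0 := by
    have : q1 ^ 3 = q0 ^ 3 := by rw [← hq1', hq]
    exact Nat.pow_left_injective (by norm_num : 3 ≠ 0) this
  subst hqq
  have hle : q1 ≤ q1 ^ 2 := Nat.le_self_pow two_ne_zero q1
  have hlq : ¬ l ∣ q1 := by
    intro h
    have h2 : l ∣ 1 := by
      rcases h1 with h1 | h1
      · exact (Nat.dvd_add_right (dvd_add (h.trans (dvd_pow_self q1 two_ne_zero)) h)).1 h1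
      · exact (Nat.dvd_add_right (Nat.dvd_sub (h.trans (dvd_pow_self q1 two_ne_zero)) h)).1 h1
    exact hl.one_lt.ne' (Nat.dvd_one.1 h2)
  have : Fact l.Prime := ⟨hl⟩
  have : Fact p.Prime := ⟨hp⟩
  have hlF' : (l : F) ≠ 0 := lF_ne hq hl hlq
  obtain ⟨φ, k, hφ, hk, hka⟩ := exists_phi' hpp hq hs hl hlq h1
  have hlF : (l : AlgebraicClosure F) ≠ 0 := by
    intro h0
    apply hlF'
    apply (algebraMap F (AlgebraicClosure F)).injective
    rw [map_natCast, map_zero, h0]
  obtain ⟨e, he⟩ := exists_wt hlF hk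
  have hN := exists_bc h3 hφ hc hcl
  have hU := exists_bc h3 hφ hu hup
  have hxN : ∀ {d : V8 F ≃ₗ[F] V8 F}, d ≠ 1 → exN (AlgebraicClosure F) (d : V8 F →ₗ[F] V8 F) ≠ 1 := by
    intro d hd h
    apply hd
    apply LinearEquiv.ext
    intro x
    apply io_inj (K := AlgebraicClosure F)
    have h10 := exN_io (K := AlgebraicClosure F) (d : V8 F →ₗ[F] V8 F) x
    rw [h] at h10
    exact h10.symm
  have hUN : exN (AlgebraicClosure F) (u : V8 F →ₗ[F] V8 F) * exN (AlgebraicClosure F) (c : V8 F →ₗ[F] V8 F) =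
      exN (AlgebraicClosure F) (c : V8 F →ₗ[F] V8 F) * exN (AlgebraicClosure F) (u : V8 F →ₗ[F] V8 F) := by
    refine ext_io (F := F) fun x => ?_
    rw [Module.End.mul_apply, Module.End.mul_apply, exN_io, exN_io, exN_io, exN_io]
    congr 1
    exact congrArg (fun z : V8 F ≃ₗ[F] V8 F => z x) huc
  have hUp : (exN (AlgebraicClosure F) (u : V8 F →ₗ[F] V8 F) - 1) ^ p = 0 := by
    have : CharP (AlgebraicClosure F) p := charP_of_injective_algebraMap (algebraMap F (AlgebraicClosure F)).injective p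
    have : CharP (Module.End (AlgebraicClosure F) (V8 (AlgebraicClosure F))) p :=
      charP_of_injective_algebraMap
        (algebraMap (AlgebraicClosure F) (Module.End (AlgebraicClosure F) (V8 (AlgebraicClosure F)))).injective p
    have h5 : Commute (exN (AlgebraicClosure F) (u : V8 F →ₗ[F] V8 F))
      (1 : Module.End (AlgebraicClosure F) (V8 (AlgebraicClosure F))) := Commute.one_right _
    have h6 := sub_pow_char_of_commute (p := p) h5
    rw [hU.pow, one_pow, sub_self] at h6
    exact h6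
  obtain ⟨h0, hcase⟩ := det_K (tk_dia φ)
    (Cfsg.Agent.ClassicalGeometry.Triality.nondeg8 (F := AlgebraicClosure F)) (finrank8 (AlgebraicClosure F)) he hN hka
    hl3 hlF (hxN hc1) hU.mul hU.iso hUN hUp (hxN hu1)
  have hneg := he.dd_neg hlF hN (Cfsg.Agent.ClassicalGeometry.Triality.nondeg8 (F := AlgebraicClosure F))
  rcases hcase with ⟨hr, hQ⟩ | ⟨i, hi0, hi3, hi1⟩
  · left
    have hU' : exN (AlgebraicClosure F) (u : V8 F →ₗ[F] V8 F) - 1 =
        exN (AlgebraicClosure F) ((u : V8 F →ₗ[F] V8 F) - LinearMap.id) := by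
      have h5 := exN_eig (K := AlgebraicClosure F) (u : V8 F →ₗ[F] V8 F) 1
      rw [map_one, one_smul, one_smul] at h5
      exact h5.symm
    refine ⟨?_, fun v => ?_⟩
    · rw [(exN_rank (K := AlgebraicClosure F) _).2, ← hU', hr]
    · have h5 := hQ (io (AlgebraicClosure F) v)
      have h6 : exN (AlgebraicClosure F) (u : V8 F →ₗ[F] V8 F) (io (AlgebraicClosure F) v) -
          io (AlgebraicClosure F) v = io (AlgebraicClosure F) (u v - v) := by
        have h7 : io (AlgebraicClosure F) (u v) =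
            io (AlgebraicClosure F) (u v - v) + io (AlgebraicClosure F) v := by
          rw [← io_add, sub_add_cancel]
        rw [exN_io, sub_eq_iff_eq_add]
        exact h7
      rw [h6, io_norm] at h5
      exact (map_eq_zero _).1 h5
  · right
    have h2' := two_ne hka
    have h3' := three_ne hl3
    have hci : (2 * (k : ZMod l) + 1) * (2 * (k : ZMod l) + 1) = -3 := by linear_combination 4 * hka
    have hk0 : (k : ZMod l) ≠ 0 := by
      intro h0
      rw [h0] at hka
      exact one_ne_zero (by linear_combination hka)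
    have hk1 : (k : ZMod l) + 1 ≠ 0 := by
      intro h0
      exact one_ne_zero (α := ZMod l) (by linear_combination hka - (k : ZMod l) * h0)
    have hc0 : 2 * (k : ZMod l) + 1 ≠ 0 := by
      intro h0
      rw [h0] at hci
      exact h3' (by linear_combination hci)
    have e1 : 2 * i ≠ 0 := mul_ne_zero h2' hi0
    have e2 : 2 * ((2 * (k : ZMod l) + 1) * i) ≠ 0 := mul_ne_zero h2' (mul_ne_zero hc0 hi0)
    have e3 : i ≠ (2 * (k : ZMod l) + 1) * i := by
      intro h
      exact mul_ne_zero (mul_ne_zero h2' hk0) hi0 (by linear_combination -h)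
    have e4 : i + (2 * (k : ZMod l) + 1) * i ≠ 0 := by
      intro h
      exact mul_ne_zero (mul_ne_zero h2' hk1) hi0 (by linear_combination h)
    rcases h1 with h1 | h1
    · left
      refine fin_plus he (fun j => mem_range_of_pow ?_) hneg e1 e2 e3 e4 hi3 hi1
      obtain ⟨t, ht⟩ := h1
      obtain ⟨r, hr⟩ : ∃ r, q1 = r + 1 := ⟨q1 - 1, by omega⟩
      have h5 : Nat.card F = l * (t * r) + 1 := by
        rw [hq, ← mul_assoc, ← ht, hr]
        ring
      rw [h5, pow_succ, pow_mul, e_pow_l he, one_pow, one_mul]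
    · right
      have hl2 : l ≠ 2 := by
        rintro rfl
        exact h2' rfl
      have h5 : l ∣ Nat.card F + 1 := by
        obtain ⟨t, ht⟩ := h1
        refine ⟨t * (q1 + 1), ?_⟩
        rw [hq, ← mul_assoc, ← ht]
        zify [hle]
        ring
      obtain ⟨t, ht⟩ := h5
      have h6 : ∀ j, e j ^ Nat.card F = e (-j) := by
        intro j
        have h7 : e j ^ (Nat.card F + 1) = 1 := by rw [ht, pow_mul, e_pow_l he, one_pow]
        rw [pow_succ] at h7
        rw [e_neg he]
        exact eq_inv_of_mul_eq_one_left h7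
      obtain ⟨f, hf⟩ := exists_frq F
      refine fin_minus he (fun j => mem_range_of_pow ?_) hneg e1 e2 e3 e4 hi3 hi1 (AutD_norm hc)
        (fun x hx => ?_) (fun v a hv => ?_)
      · rw [← hf, map_add, hf, hf, h6, h6, neg_neg, add_comm]
      · exact (LinearEquiv.map_eq_zero_iff c).1 hx
      · by_contra hv0
        have hcv : ∀ n : ℕ, (c ^ n) v = a ^ n • v := by
          intro n
          induction n with
          | zero => rw [pow_zero, pow_zero, one_smul]; rfl
          | succ n ih =>
            have h8 : (c ^ (n + 1)) v = (c ^ n) (c v) := by rw [pow_succ]; rfl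
            have hv' : c v = a • v := hv
            rw [h8, hv', map_smul, ih, smul_smul, pow_succ']
        have h8 : a ^ l = 1 := by
          have h9 := hcv l
          rw [hcl] at h9
          have h10 : (a ^ l - 1) • v = 0 := by
            rw [sub_smul, ← h9, one_smul]
            exact sub_self v
          exact sub_eq_zero.1 ((smul_eq_zero.1 h10).resolve_right hv0)
        have h9 : a ^ Nat.card F = a := by
          have := Fintype.ofFinite F
          rw [Nat.card_eq_fintype_card]
          exact FiniteField.pow_card _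
        have h10 : a * a = 1 := by
          have h11 : a ^ (Nat.card F + 1) = 1 := by rw [ht, pow_mul, h8, one_pow]
          rwa [pow_succ, h9] at h11
        have h11 : a = 1 := by
          obtain ⟨r, hr⟩ := (hl.eq_two_or_odd'.resolve_left hl2)
          rw [hr, pow_succ, pow_mul, pow_two, h10, one_pow, one_mul] at h8
          exact h8
        have h12 : io (AlgebraicClosure F) v ∈ Ei (exN (AlgebraicClosure F) (c : V8 F →ₗ[F] V8 F)) (e 0) := by
          rw [mem_Ei, exN_io, he.zero, one_smul, hv, h11, one_smul]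
        have h13 := zero_of h0 h12
        apply hv0
        apply io_inj (K := AlgebraicClosure F)
        have h14 : io (AlgebraicClosure F) (0 : V8 F) = 0 := funext fun _ => map_zero _
        rw [h13, h14]

end fin

end desc

end Cfsg.Agent.H531.RC
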